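import Cfsg.Agent.H127.S3530.SupTopA
import Cfsg.Agent.H872.S3530.ReeAut

/-!
# S3530: no outer part (helper127)
-/

set_option autoImplicit false
set_option linter.unusedSectionVars false

namespace Cfsg.Agent.H389.RSq

open Subgroup

universe u

variable {m : ℕ} {Y : Type u} [Group Y] [Finite Y] {K L : Subgroup Y}

/-- no outer part -/
theorem RR.sup_eq_top (h : RR m Y K L) (hcl : Cl m Y) : K ⊔ L = ⊤ :=
  H127Sup.sup_eq_top_of h hcl (fun α _ hr hr2 hα => h.reeK.aut α hr hr2 hα) (fun α _ hr hr2 hα => h.reeL.aut α hr hr2 hα)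

end Cfsg.Agent.H389.RSq
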